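import Cfsg.Agent.Lib.AutPOm.Cent
import Cfsg.Agent.Lib.AutPOm.OddOut
import Cfsg.Agent.Lib.Classical.BalanceAbs

/-! Base change of orthogonal groups along a field embedding: automorphisms fixing the small group. -/

set_option autoImplicit false
set_option linter.unusedSimpArgs false
set_option linter.unusedVariables false
set_option linter.unusedSectionVars false

namespace Cfsg.Agent.Lib.AutPOm

open Matrix Module MulAction Cfsg.Agent.Lib.Classical
open Cfsg.Agent.Lib.AutPSL (sm sm_add sm_smul sm_symm_sm sm_sm_symm glMap glMap_coe semi_vec_ne_zero map_mulVec_sm nrm nrmF nrmF_succ nrm_succ' exists_gl_of_nrm_one exists_nrmF_eq exists_of_nrmF_one nrm_scalar_mul nrmF_inv nrmF_zero coe_scalar_mul slinear glMap_one orderOf_conj')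
open Cfsg.Agent.Lib.Quad (quad_eq_of_basis NondegQ)
open Cfsg.Agent.Lib.FieldAut (fixedField mem_fixedField)
open scoped LinearAlgebra.Projectivization MatrixGroups

variable {F K : Type*} [Field F] [Field K] {ι : Type} [Fintype ι] [DecidableEq ι] {Q : QuadraticForm F (ι → F)} {Q₀ : QuadraticForm K (ι → K)}

local notation "bb" => QuadraticMap.polar (DFunLike.coe Q)
local notation "b₀" => QuadraticMap.polar (DFunLike.coe Q₀)
local notation "VV" => (ι → F)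
local notation "MM" => Matrix ι ι F
local notation "GG" => GL ι F
local notation "GK" => GL ι K

section base

variable (φ : K →+* F) (hQ₀ : ∀ v, φ (Q₀ v) = Q (bc φ v))
include hQ₀

theorem map_mem_og {g₀ : GK} (h : g₀ ∈ Cfsg.isometryGroup K (⇑Q₀)) :
    Matrix.GeneralLinearGroup.map φ g₀ ∈ Cfsg.isometryGroup F (⇑Q) := by
  intro u v
  have h1 := sim_descent φ hQ₀ hQ₀ g₀ 1 (fun v => by
    rw [one_mul]
    exact h v v) u
  rw [map_one, one_mul] at h1
  exact h1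

/-- Base change of isometries. -/
noncomputable def ogMap : OG Q₀ →* OG Q where
  toFun A := ⟨Matrix.GeneralLinearGroup.map φ A.1, map_mem_og φ hQ₀ A.2⟩
  map_one' := Subtype.ext (map_one _)
  map_mul' A B := Subtype.ext (map_mul _ _ _)

theorem oM_ogMap (A : OG Q₀) : oM (ogMap φ hQ₀ A) = (oM A).map φ := rfl

theorem ogMap_bc (A : OG Q₀) (v : ι → K) : oM (ogMap φ hQ₀ A) *ᵥ bc φ v = bc φ (oM A *ᵥ v) := map_mulVec_bc φ _ _

theorem ogMap_mem_om {A : OG Q₀} (h : A ∈ OmG Q₀) : ogMap φ hQ₀ A ∈ OmG Q := by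
  have h1 : (OmG Q₀).map (ogMap φ hQ₀) ≤ OmG Q := by
    show (commutator (OG Q₀)).map (ogMap φ hQ₀) ≤ commutator (OG Q)
    rw [commutator_def, commutator_def, Subgroup.map_commutator]
    exact Subgroup.commutator_mono le_top le_top
  exact h1 ⟨A, h, rfl⟩

/-- Base change on `Ω`. -/
noncomputable def omMap : OmG Q₀ →* OmG Q where
  toFun A := ⟨ogMap φ hQ₀ A.1, ogMap_mem_om φ hQ₀ A.2⟩
  map_one' := Subtype.ext (map_one _)
  map_mul' A B := Subtype.ext (map_mul _ _ _)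

theorem mt_omMap (A : OmG Q₀) : mt (omMap φ hQ₀ A) = (mt A).map φ := rfl

theorem omMap_coe (A : OmG Q₀) : (omMap φ hQ₀ A).1 = ogMap φ hQ₀ A.1 := rfl

omit hQ₀ in
theorem mat_ext_bc {M N : MM} (h : ∀ v₀ : ι → K, M *ᵥ bc φ v₀ = N *ᵥ bc φ v₀) : M = N := by
  apply Matrix.ext_of_mulVec_single
  intro j
  have := h (Pi.single j 1)
  rwa [bc_single] at this

section good

variable [Fintype F] [Fintype K] [hF : Good Q] [hK : Good Q₀]

theorem omMap_eO {u₀ w₀ : ι → K} (hu₀ : Q₀ u₀ = 0) (h₀ : b₀ u₀ w₀ = 0) (hu : Q (bc φ u₀) = 0) (h₁ : bb (bc φ u₀) (bc φ w₀) = 0) :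
    omMap φ hQ₀ (eO hu₀ h₀) = eO hu h₁ := by
  apply mt_ext
  intro v
  have h1 : mt (omMap φ hQ₀ (eO hu₀ h₀)) = mt (eO hu h₁) := by
    apply mat_ext_bc φ
    intro v₀
    rw [mt_omMap, map_mulVec_bc, eO_apply, eO_apply]
    have e1 : ∀ a b : ι → K, QuadraticMap.polar (⇑Q) (bc φ a) (bc φ b) = φ (QuadraticMap.polar (⇑Q₀) a b) := fun a b =>
      (polar_comp_bc φ Q₀ Q hQ₀ a b).symm
    rw [e1, e1]
    funext i
    simp only [bc_apply, Pi.add_apply, Pi.sub_apply, Pi.smul_apply, smul_eq_mul, map_add, map_sub, map_mul, ← hQ₀]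
  rw [h1]

end good

end base

theorem semi_polar {g : GG} {ρ : F ≃+* F} {c : Fˣ} (hc : ∀ v : VV, Q ((g : MM) *ᵥ sm ρ v) = (c : F) * ρ (Q v)) (x y : VV) :
    bb ((g : MM) *ᵥ sm ρ x) ((g : MM) *ᵥ sm ρ y) = (c : F) * ρ (bb x y) := by
  simp only [QuadraticMap.polar, ← Matrix.mulVec_add, ← sm_add, hc, map_sub, map_add]
  ring

section good

variable [Fintype F] [hF : Good Q]

/-- A non-zero vector orthogonal to four given vectors. -/
theorem exists_perp_four (a b c d : VV) : ∃ z : VV, z ≠ 0 ∧ bb a z = 0 ∧ bb b z = 0 ∧ bb c z = 0 ∧ bb d z = 0 := by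
  classical
  let L : VV →ₗ[F] (Fin 4 → F) := LinearMap.pi ![QuadraticMap.polarBilin Q a, QuadraticMap.polarBilin Q b, QuadraticMap.polarBilin Q c, QuadraticMap.polarBilin Q d]
  have hbig := hF.big
  have h1 : LinearMap.ker L ≠ ⊥ := LinearMap.ker_ne_bot_of_finrank_lt (by
    rw [Module.finrank_fintype_fun_eq_card, Module.finrank_fintype_fun_eq_card]
    simp
    omega)
  obtain ⟨z, hz, hz0⟩ := Submodule.exists_mem_ne_zero_of_ne_bot h1
  have hz' : L z = 0 := hz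
  refine ⟨z, hz0, ?_, ?_, ?_, ?_⟩
  · simpa [L] using congrFun hz' 0
  · simpa [L] using congrFun hz' 1
  · simpa [L] using congrFun hz' 2
  · simpa [L] using congrFun hz' 3

/-- A semilinear automorphism fixing a long-root element. -/
theorem fix_eO_span {g : GG} {ρ : F ≃+* F} (hs : Cfsg.IsSemisimilarityPair (⇑Q) g ρ) {u w : VV} (hu : Q u = 0) (hw : Q w = 0) (h1 : bb u w = 0)
    (hfix : psemiO g ρ hs (pr (eO hu h1)) = pr (eO hu h1)) {a : VV} (ha1 : bb u a = 0) (ha2 : bb w a = 1) :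
    ∃ s t : F, (g : MM) *ᵥ sm ρ u = s • u + t • w := by
  classical
  obtain ⟨c, hc⟩ := semi_Q hs
  set E := eO hu h1 with hE
  rw [psemiO_pr, pr_eq_iff] at hfix
  set u' := (g : MM) *ᵥ sm ρ u with hu'
  set w' := (g : MM) *ᵥ sm ρ w with hw'
  have hM : ∀ x : VV, mt (omSemi g ρ hs E) *ᵥ ((g : MM) *ᵥ sm ρ x) = (g : MM) *ᵥ sm ρ x + ρ (bb u x) • w' - ρ (bb w x) • u' := by
    intro x
    rw [mt_omSemi, hE, eO_apply, hw, zero_mul, zero_smul, sub_zero, sub_eq_add_neg, sm_add, sm_add, Matrix.mulVec_add, Matrix.mulVec_add, sm_smul, Matrix.mulVec_smul]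
    have : sm ρ (-(bb w x • u)) = - (ρ (bb w x) • sm ρ u) := by
      funext i
      simp [sm]
    rw [this, Matrix.mulVec_neg, Matrix.mulVec_smul, sub_eq_add_neg]
  have hEv : ∀ z : VV, mt E *ᵥ z = z + bb u z • w - bb w z • u := by
    intro z
    rw [hE, eO_apply, hw, zero_mul, zero_smul, sub_zero]
  have hEM : mt E = mt (omSemi g ρ hs E) := by
    rcases hfix with h | h
    · exact h
    by_cases h2 : (2 : F) = 0
    · rw [h]
      ext i j
      simp only [Matrix.neg_apply]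
      linear_combination (-(mt (omSemi g ρ hs E) i j)) * h2
    · exfalso
      obtain ⟨z, hz0, hz1, hz2, hz3, hz4⟩ := exists_perp_four (Q := Q) u w u' w'
      set x : VV := sm ρ.symm (((g⁻¹ : GG) : MM) *ᵥ z) with hx
      have hzx : (g : MM) *ᵥ sm ρ x = z := by
        rw [hx, sm_sm_symm, gl_mul_inv]
      have hx1 : ρ (bb u x) = 0 := by
        have := semi_polar hc u x
        rw [hzx, hz3] at this
        exact (mul_eq_zero.1 this.symm).resolve_left c.ne_zero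
      have hx2 : ρ (bb w x) = 0 := by
        have := semi_polar hc w x
        rw [hzx, hz4] at this
        exact (mul_eq_zero.1 this.symm).resolve_left c.ne_zero
      have h3 := hM x
      rw [hzx, hx1, hx2, zero_smul, zero_smul, add_zero, sub_zero] at h3
      have h4 := hEv z
      rw [hz1, hz2, zero_smul, zero_smul, add_zero, sub_zero, h, Matrix.neg_mulVec, h3] at h4
      have h5 : (2 : F) • z = 0 := by
        rw [two_smul]
        nth_rewrite 1 [← h4]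
        simp
      exact hz0 ((smul_eq_zero.1 h5).resolve_left h2)
  set z := (g : MM) *ᵥ sm ρ a with hz
  have h3 := hM a
  have h4 := hEv z
  rw [hEM, h3, ha1, ha2, map_zero, map_one, zero_smul, one_smul, add_zero] at h4
  refine ⟨bb w z, - bb u z, ?_⟩
  have h5 : u' = z - (z + bb u z • w - bb w z • u) := by
    rw [← h4]
    abel
  rw [h5, neg_smul]
  abel

end good

section rational

variable [Fintype F] [Fintype K] [hF : Good Q] [hK : Good Q₀] (φ : K →+* F) (hQ₀ : ∀ v, φ (Q₀ v) = Q (bc φ v))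
include hQ₀

/-- Rational singular vectors are eigenvectors. -/
theorem eigen_of_rational {g : GG} {ρ : F ≃+* F} (hs : Cfsg.IsSemisimilarityPair (⇑Q) g ρ)
    (hfix : ∀ A : OmG Q₀, psemiO g ρ hs (pr (omMap φ hQ₀ A)) = pr (omMap φ hQ₀ A)) {u₀ : ι → K} (hu0 : u₀ ≠ 0) (hu₀ : Q₀ u₀ = 0) :
    ∃ c : F, (g : MM) *ᵥ sm ρ (bc φ u₀) = c • bc φ u₀ := by
  obtain ⟨v₀, hv₀, huv⟩ := exists_partner hu0 hu₀
  obtain ⟨e, f, he, hf, hef, ⟨hue, hve⟩, ⟨huf, hvf⟩, -, -⟩ := exists_hyp_perp3 hu₀ hv₀ huv (w := 0) ⟨polar_zero_r _, polar_zero_r _⟩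
  obtain ⟨e', f', he', hf', hef', ⟨hue', hve'⟩, ⟨huf', hvf'⟩, hee', hef2⟩ := exists_hyp_perp3 hu₀ hv₀ huv (w := e) ⟨hue, hve⟩
  have e1 : ∀ a b : ι → K, QuadraticMap.polar (⇑Q) (bc φ a) (bc φ b) = φ (QuadraticMap.polar (⇑Q₀) a b) := fun a b =>
    (polar_comp_bc φ Q₀ Q hQ₀ a b).symm
  have hsing : ∀ {a : ι → K}, Q₀ a = 0 → Q (bc φ a) = 0 := by
    intro a ha
    rw [← hQ₀, ha, map_zero]
  have h1 := hfix (eO hu₀ hue)
  rw [omMap_eO φ hQ₀ hu₀ hue (hsing hu₀) (by rw [e1, hue, map_zero])] at h1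
  obtain ⟨s, t, hst⟩ := fix_eO_span hs (hsing hu₀) (hsing he) _ h1 (a := bc φ f) (by rw [e1, huf, map_zero]) (by rw [e1, hef, map_one])
  have h2 := hfix (eO hu₀ hue')
  rw [omMap_eO φ hQ₀ hu₀ hue' (hsing hu₀) (by rw [e1, hue', map_zero])] at h2
  obtain ⟨s', t', hst'⟩ := fix_eO_span hs (hsing hu₀) (hsing he') _ h2 (a := bc φ f') (by rw [e1, huf', map_zero]) (by rw [e1, hef', map_one])
  have h3 : s • bc φ u₀ + t • bc φ e = s' • bc φ u₀ + t' • bc φ e' := hst.symm.trans hst'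
  have h4 := congrArg (fun x => QuadraticMap.polar (⇑Q) x (bc φ f')) h3
  simp only [polar_add_l, polar_smul_l, e1, huf', hef2, hef', map_zero, map_one, mul_zero, add_zero, zero_add, mul_one] at h4
  refine ⟨s', ?_⟩
  rw [hst', ← h4, zero_smul, add_zero]

omit hF hQ₀ in
/-- Every vector is a combination of singular vectors. -/
theorem sing_decomp (x : ι → K) : ∃ (s e f : ι → K) (a b : K), Q₀ s = 0 ∧ Q₀ e = 0 ∧ Q₀ f = 0 ∧ x = s + a • e + b • f := by
  obtain ⟨e, f, he, hf, hef, -, -, -, -⟩ := exists_hyp_perp2 hK.nd hK.big (0 : ι → K) 0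
  set w : ι → K := x - b₀ x f • e - b₀ x e • f with hw
  have hwe : b₀ e w = 0 := by
    rw [hw, polar_sub_r, polar_sub_r, polar_smul_r, polar_smul_r, polar_symm e x, polar_self_of_singular he, hef]
    ring
  have hwf : b₀ f w = 0 := by
    rw [hw, polar_sub_r, polar_sub_r, polar_smul_r, polar_smul_r, polar_symm f x, polar_self_of_singular hf, polar_symm f e, hef]
    ring
  have hs : Q₀ (w + e - Q₀ w • f) = 0 := by
    rw [q_sub, q_add, he, q_smul, hf, polar_add_l, polar_smul_r, polar_symm w f, hwf, polar_symm w e, hwe, polar_smul_r, hef]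
    ring
  refine ⟨_, e, f, b₀ x f - 1, b₀ x e + Q₀ w, hs, he, hf, ?_⟩
  rw [hw] at *
  rw [sub_smul, add_smul, one_smul]
  abel

/-- A semilinear map with all rational singular vectors as eigenvectors. -/
theorem scalar_of_eigen {g : GG} {ρ : F ≃+* F} (hfix : ∀ v₀ : ι → K, v₀ ≠ 0 → Q₀ v₀ = 0 → ∃ c : F, (g : MM) *ᵥ sm ρ (bc φ v₀) = c • bc φ v₀) :
    (∀ a, ρ (φ a) = φ a) ∧ ∃ c : F, c ≠ 0 ∧ (g : MM) = c • (1 : MM) := by
  have e1 : ∀ a b : ι → K, QuadraticMap.polar (⇑Q) (bc φ a) (bc φ b) = φ (QuadraticMap.polar (⇑Q₀) a b) := fun a b =>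
    (polar_comp_bc φ Q₀ Q hQ₀ a b).symm
  have hbc0 : ∀ {v : ι → K}, v ≠ 0 → bc φ v ≠ 0 := fun hv h0 => hv (bc_eq_zero φ h0)
  have key : ∀ (u v : ι → K) (c₁ c₂ : F), u ≠ 0 → v ≠ 0 → Q₀ u = 0 → Q₀ v = 0 → b₀ u v = 0 → (∀ s t : F, s • bc φ u + t • bc φ v = 0 → s = 0 ∧ t = 0) →
      (g : MM) *ᵥ sm ρ (bc φ u) = c₁ • bc φ u → (g : MM) *ᵥ sm ρ (bc φ v) = c₂ • bc φ v → ∀ a : K, ρ (φ a) * c₂ = c₁ * φ a := by
    intro u v c₁ c₂ hu0 hv0 hu hv huv hli h1 h2 a
    have hne : u + a • v ≠ 0 := by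
      intro h0
      have h3 := hli 1 (φ a) (by
        rw [one_smul, ← bc_smul, ← bc_add, h0, bc_zero])
      exact one_ne_zero h3.1
    have hsing : Q₀ (u + a • v) = 0 := by
      rw [q_add, q_smul, hu, hv, polar_smul_r, huv]
      ring
    obtain ⟨c, hc⟩ := hfix _ hne hsing
    rw [bc_add, bc_smul, sm_add, Matrix.mulVec_add, sm_smul, Matrix.mulVec_smul, h1, h2] at hc
    have h3 : (c₁ - c) • bc φ u + (ρ (φ a) * c₂ - c * φ a) • bc φ v = 0 := by
      rw [sub_smul, sub_smul]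
      rw [smul_add, smul_smul, smul_smul] at hc
      rw [show (c₁ • bc φ u - c • bc φ u + ((ρ (φ a) * c₂) • bc φ v - (c * φ a) • bc φ v)) = (c₁ • bc φ u + (ρ (φ a) * c₂) • bc φ v) - (c • bc φ u + (c * φ a) • bc φ v) by abel, hc, sub_self]
    obtain ⟨h4, h5⟩ := hli _ _ h3
    rw [sub_eq_zero] at h4 h5
    rw [h5, h4]
  obtain ⟨e, f, he, hf, hef, -, -, -, -⟩ := exists_hyp_perp2 hK.nd hK.big (0 : ι → K) 0
  have he0 : e ≠ 0 := by
    rintro rfl
    rw [polar_zero_l] at hef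
    exact zero_ne_one hef
  obtain ⟨c₀, hc₀⟩ := hfix e he0 he
  have hc₀0 : c₀ ≠ 0 := by
    rintro rfl
    rw [zero_smul] at hc₀
    exact semi_vec_ne_zero g ρ (hbc0 he0) hc₀
  have hpair : ∀ u : ι → K, u ≠ 0 → Q₀ u = 0 → ∃ y, y ≠ 0 ∧ Q₀ y = 0 ∧ b₀ u y = 0 ∧ b₀ e y = 0 ∧ (∀ s t : F, s • bc φ u + t • bc φ y = 0 → s = 0 ∧ t = 0) ∧
      (∀ s t : F, s • bc φ e + t • bc φ y = 0 → s = 0 ∧ t = 0) := by
    intro u hu0 hu
    obtain ⟨y, z, hy, hz, hyz, huy, hey, huz, hez⟩ := exists_hyp_perp2 hK.nd hK.big u e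
    have hy0 : y ≠ 0 := by
      rintro rfl
      rw [polar_zero_l] at hyz
      exact zero_ne_one hyz
    have hli : ∀ w : ι → K, w ≠ 0 → b₀ w z = 0 → ∀ s t : F, s • bc φ w + t • bc φ y = 0 → s = 0 ∧ t = 0 := by
      intro w hw0 hwz s t hst
      have h1 := congrArg (fun x => QuadraticMap.polar (⇑Q) x (bc φ z)) hst
      simp only [polar_add_l, polar_smul_l, e1, hwz, hyz, polar_zero_l, map_zero, map_one, mul_zero, mul_one, zero_add] at h1
      subst h1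
      rw [zero_smul, add_zero] at hst
      exact ⟨(smul_eq_zero.1 hst).resolve_right (hbc0 hw0), rfl⟩
    exact ⟨y, hy0, hy, huy, hey, hli u hu0 huz, hli e he0 hez⟩
  have hconst : ∀ u : ι → K, u ≠ 0 → Q₀ u = 0 → (g : MM) *ᵥ sm ρ (bc φ u) = c₀ • bc φ u := by
    intro u hu0 hu
    obtain ⟨y, hy0, hy, huy, hey, h1, h2⟩ := hpair u hu0 hu
    obtain ⟨c₁, hc₁⟩ := hfix u hu0 hu
    obtain ⟨c₂, hc₂⟩ := hfix y hy0 hy
    have h3 := key u y c₁ c₂ hu0 hy0 hu hy huy h1 hc₁ hc₂ 1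
    have h4 := key e y c₀ c₂ he0 hy0 he hy hey h2 hc₀ hc₂ 1
    rw [map_one, map_one, one_mul, mul_one] at h3 h4
    rw [hc₁, ← h3, h4]
  have hρ : ∀ a, ρ (φ a) = φ a := by
    intro a
    obtain ⟨y, hy0, hy, huy, hey, h1, h2⟩ := hpair e he0 he
    have h4 := key e y c₀ c₀ he0 hy0 he hy hey h2 hc₀ (hconst y hy0 hy) a
    rw [mul_comm c₀] at h4
    exact mul_right_cancel₀ hc₀0 h4
  have hsm : ∀ v : ι → K, sm ρ (bc φ v) = bc φ v := by
    intro v
    funext i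
    exact hρ _
  refine ⟨hρ, c₀, hc₀0, ?_⟩
  have hconst' : ∀ u : ι → K, Q₀ u = 0 → (g : MM) *ᵥ bc φ u = c₀ • bc φ u := by
    intro u hu
    by_cases hu0 : u = 0
    · rw [hu0, bc_zero, smul_zero, Matrix.mulVec_zero]
    · have := hconst u hu0 hu
      rwa [hsm] at this
  apply mat_ext_bc φ
  intro x
  obtain ⟨s, e', f', a, b, h1, h2, h3, rfl⟩ := sing_decomp (Q₀ := Q₀) x
  rw [Matrix.smul_mulVec, Matrix.one_mulVec, bc_add, bc_add, bc_smul, bc_smul, Matrix.mulVec_add, Matrix.mulVec_add, Matrix.mulVec_smul, Matrix.mulVec_smul, hconst' s h1, hconst' e' h2, hconst' f' h3, smul_add, smul_add, smul_comm (φ a), smul_comm (φ b)]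

/-- A semilinear automorphism fixing the small group is a field automorphism over the small field. -/
theorem semi_scalar_of_base_fixO {g : GG} {ρ : F ≃+* F} (hs : Cfsg.IsSemisimilarityPair (⇑Q) g ρ)
    (hfix : ∀ A : OmG Q₀, psemiO g ρ hs (pr (omMap φ hQ₀ A)) = pr (omMap φ hQ₀ A)) :
    (∀ a, ρ (φ a) = φ a) ∧ ∃ c : F, c ≠ 0 ∧ (g : MM) = c • (1 : MM) :=
  scalar_of_eigen φ hQ₀ (fun _ hv hvv => eigen_of_rational φ hQ₀ hs hfix hv hvv)

end rational

end Cfsg.Agent.Lib.AutPOm
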