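import Cfsg.Agent.Lib.AutPOm.BalBase
import Cfsg.Agent.S0295

/-! Local balance for `PΩ` in odd dimension. -/

set_option autoImplicit false
set_option linter.unusedSimpArgs false
set_option linter.unusedVariables false
set_option linter.unusedSectionVars false

namespace Cfsg.Agent.Lib.AutPOm

open Matrix Module MulAction Cfsg.Agent.Lib.Classical
open Cfsg.Agent.Lib.AutPSL (sm sm_add sm_smul sm_symm_sm sm_sm_symm glMap glMap_coe semi_vec_ne_zero map_mulVec_sm nrm nrmF nrmF_succ nrm_succ' exists_gl_of_nrm_one exists_nrmF_eq exists_of_nrmF_one nrm_scalar_mul nrmF_inv nrmF_zero coe_scalar_mul slinear glMap_one orderOf_conj')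
open Cfsg.Agent.Lib.Quad (quad_eq_of_basis NondegQ)
open Cfsg.Agent.Lib.FieldAut (fixedField mem_fixedField)
open Cfsg.Agent.Lib.AutPSp (exists_GL_fixed_gen)
open scoped LinearAlgebra.Projectivization MatrixGroups

variable {F K : Type*} [Field F] [Field K] {ι : Type} [Fintype ι] [DecidableEq ι] {Q : QuadraticForm F (ι → F)} {Q₀ : QuadraticForm K (ι → K)}

local notation "bb" => QuadraticMap.polar (DFunLike.coe Q)
local notation "b₀" => QuadraticMap.polar (DFunLike.coe Q₀)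
local notation "VV" => (ι → F)
local notation "MM" => Matrix ι ι F
local notation "GG" => GL ι F
local notation "GK" => GL ι K

theorem mt_inj {A B : OmG Q} (h : mt A = mt B) : A = B :=
  mt_ext (fun v => by rw [h])

theorem mt_std {σ : F ≃+* F} (hσ : ∀ v : VV, Q (sm σ v) = σ (Q v)) (A : OmG Q) : mt (omSemi 1 σ (semi_std hσ) A) = (mt A).map σ := by
  show ((1 * glMap σ A.1.1 * 1⁻¹ : GG) : MM) = _
  simp [glMap_coe]

theorem om_det (A : OmG Q) : (mt A).det = 1 := by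
  have h : OmG Q ≤ SOg Q := by
    show commutator _ ≤ _
    rw [commutator_def, Subgroup.commutator_le]
    intro a _ b _
    change _ ∈ MonoidHom.ker _
    rw [MonoidHom.mem_ker, map_commutatorElement]
    exact commutatorElement_eq_one_iff_mul_comm.2 (mul_comm _ _)
  exact (mem_SOg_iff _).1 (h A.2)

/-- In odd dimension a field-fixed class has a field-fixed representative. -/
theorem fixed_of_odd (hn : Odd (Fintype.card ι)) (h2 : (2 : F) ≠ 0) {σ : F ≃+* F} {B : OmG Q} (h : mt B = (mt B).map σ ∨ mt B = - (mt B).map σ) :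
    (mt B).map σ = mt B := by
  rcases h with h | h
  · exact h.symm
  exfalso
  have h1 := congrArg Matrix.det h
  rw [Matrix.det_neg, hn.neg_one_pow, om_det] at h1
  have h3 : ((mt B).map σ).det = σ (mt B).det := ((σ : F →+* F).map_det (mt B)).symm
  rw [h3, om_det, map_one] at h1
  apply h2
  linear_combination h1

section gen

variable [Fintype F] [Fintype K] [hF : Good Q] [hK : Good Q₀] (φ : K →+* F) (hQ₀ : ∀ v, φ (Q₀ v) = Q (bc φ v)) {σ : F ≃+* F} (hσ : ∀ v : ι → F, Q (sm σ v) = σ (Q v))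

/-- The base-changed group in `PΩ`. -/
noncomputable def DpO : Subgroup (PO Q) := ((pr (Q := Q)).comp (omMap φ hQ₀)).range

theorem pr_mem_DpO (A : OmG Q₀) : pr (omMap φ hQ₀ A) ∈ DpO φ hQ₀ := ⟨A, rfl⟩

include hQ₀ in
theorem fix_DpO (hφ' : ∀ b, σ (φ b) = φ b) (A : OmG Q₀) : psemiO 1 σ (semi_std hσ) (pr (omMap φ hQ₀ A)) = pr (omMap φ hQ₀ A) := by
  rw [psemiO_pr]
  congr 1
  apply mt_inj
  rw [mt_std hσ, mt_omMap]
  ext i j
  exact hφ' _

/-- Field-fixed elements descend. -/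
theorem exists_og_of_fixed (hφ : ∀ a, σ a = a → ∃ b, φ b = a) (B : OmG Q) (hB : (mt B).map σ = mt B) : ∃ B₀ : OG Q₀, ogMap φ hQ₀ B₀ = B.1 := by
  obtain ⟨g₀, hg₀⟩ := exists_GL_fixed_gen σ φ hφ B.1.1 hB
  have hmem : g₀ ∈ Cfsg.isometryGroup K (⇑Q₀) := by
    intro u v
    show Q₀ ((g₀ : Matrix ι ι K) *ᵥ u) = Q₀ u
    apply φ.injective
    rw [hQ₀, hQ₀, ← gl_map_bc, hg₀]
    exact oM_Q B.1 _
  exact ⟨⟨g₀, hmem⟩, Subtype.ext hg₀⟩

theorem conj_DpO {B : OmG Q} {B₀ : OG Q₀} (hB : ogMap φ hQ₀ B₀ = B.1) {d : PO Q} (hd : d ∈ DpO φ hQ₀) : pr B * d * (pr B)⁻¹ ∈ DpO φ hQ₀ := by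
  obtain ⟨A, rfl⟩ := hd
  have hmem : B₀ * A.1 * B₀⁻¹ ∈ OmG Q₀ := Subgroup.Normal.conj_mem inferInstance A.1 A.2 B₀
  refine ⟨⟨_, hmem⟩, ?_⟩
  show pr (omMap φ hQ₀ _) = pr B * pr (omMap φ hQ₀ A) * (pr B)⁻¹
  rw [← map_inv, ← map_mul, ← map_mul]
  congr 1
  apply Subtype.ext
  show ogMap φ hQ₀ (B₀ * A.1 * B₀⁻¹) = B.1 * ogMap φ hQ₀ A.1 * B.1⁻¹
  rw [map_mul, map_mul, map_inv, hB]

theorem pr_eq_one_of_scalar {A : OmG Q} {c : F} (h : mt A = c • (1 : MM)) : pr A = 1 := by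
  apply (QuotientGroup.eq_one_iff A).2
  rw [Subgroup.mem_center_iff]
  intro B
  apply mt_inj
  show mt B * mt A = mt A * mt B
  rw [h, Matrix.mul_smul, Matrix.smul_mul, mul_one, one_mul]

include hQ₀ in
theorem comm_DpO {z : PO Q} (hz : ∀ d ∈ DpO φ hQ₀, z * d = d * z) : z = 1 := by
  obtain ⟨g, rfl⟩ := pr_surj z
  have h1 : ∀ A : OmG Q₀, psemiO g.1.1 (RingEquiv.refl F) (semi_of_og g.1) (pr (omMap φ hQ₀ A)) = pr (omMap φ hQ₀ A) := by
    intro A
    rw [← conj_eq_psemiO, MulAut.conj_apply, hz _ (pr_mem_DpO φ hQ₀ A)]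
    group
  obtain ⟨-, κ, hκ, he⟩ := semi_scalar_of_base_fixO φ hQ₀ (semi_of_og g.1) h1
  exact pr_eq_one_of_scalar he

include hQ₀ in
/-- Automorphisms fixing the base-changed group pointwise. -/
theorem fixer_mem_zpowersO (hall : ∀ α : MulAut (PO Q), ∃ (M : GG) (σ : F ≃+* F) (hs : Cfsg.IsSemisimilarityPair (⇑Q) M σ), α = psemiO M σ hs)
    (hσall : ∀ (ρ : F ≃+* F) (v : VV), Q (sm ρ v) = ρ (Q v)) (hφ : ∀ a, σ a = a → ∃ b, φ b = a) {y : MulAut (PO Q)}
    (hfix : ∀ A : OmG Q₀, y (pr (omMap φ hQ₀ A)) = pr (omMap φ hQ₀ A)) : y ∈ Subgroup.zpowers (psemiO 1 σ (semi_std hσ)) := by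
  obtain ⟨g, ρ, hs, rfl⟩ := hall y
  obtain ⟨hρ, κ, hκ, he⟩ := semi_scalar_of_base_fixO φ hQ₀ hs hfix
  have h1 : psemiO g ρ hs = psemiO 1 ρ (semi_std (hσall ρ)) := psemiO_smul_eq ρ (semi_std (hσall ρ)) hs (c := κ) (by simpa using he) hκ
  have h2 : ρ ∈ Subgroup.zpowers σ := by
    apply mem_zpowers_of_fix
    intro a ha
    obtain ⟨b, rfl⟩ := hφ a (mem_fixedField.1 ha)
    exact hρ b
  let S : (F ≃+* F) →* MulAut (PO Q) :=
    { toFun := fun τ => psemiO 1 τ (semi_std (hσall τ))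
      map_one' := std_one (hσall 1)
      map_mul' := fun a b => (std_mul (hσall a) (hσall b) (hσall (a * b))).symm }
  obtain ⟨i, rfl⟩ := Subgroup.mem_zpowers_iff.1 h2
  rw [h1, Subgroup.mem_zpowers_iff]
  refine ⟨i, ?_⟩
  exact (map_zpow S σ i).symm

/-- The normal subgroup criterion. -/
theorem T_trivial_of_simpleO (hsimple : IsSimpleGroup (PO Q₀)) (hφ' : ∀ b, σ (φ b) = φ b)
    (hfx : ∀ k : PO Q, psemiO 1 σ (semi_std hσ) k = k → ∃ (B : OmG Q) (B₀ : OG Q₀), pr B = k ∧ ogMap φ hQ₀ B₀ = B.1)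
    {p : ℕ} [Fact p.Prime] (hd : ∃ d ∈ DpO φ hQ₀, orderOf d = p) (T : Subgroup (PO Q)) (hT : T ≤ autFix (psemiO 1 σ (semi_std hσ)))
    (hTd : ∀ d t, psemiO 1 σ (semi_std hσ) d = d → t ∈ T → d * t * d⁻¹ ∈ T) (hTc : (Nat.card T).Coprime p) : T = ⊥ := by
  classical
  have hpp : p.Prime := Fact.out
  let π : OmG Q₀ →* PO Q := (pr (Q := Q)).comp (omMap φ hQ₀)
  have hπc : Subgroup.center (OmG Q₀) ≤ π.ker := by
    intro A hA
    rw [MonoidHom.mem_ker]
    show pr (omMap φ hQ₀ A) = 1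
    rw [pr_eq_one_iff, mt_omMap]
    rcases mem_center_iff.1 hA with h | h
    · left
      rw [h]
      ext i j
      simp [Matrix.one_apply]
    · right
      rw [h]
      ext i j
      simp [Matrix.one_apply]
  let π' : PO Q₀ →* PO Q := QuotientGroup.lift _ π hπc
  have hπ'mk : ∀ A : OmG Q₀, π' (pr A) = pr (omMap φ hQ₀ A) := fun A => rfl
  let M : Subgroup (PO Q₀) := T.comap π'
  have hMn : M.Normal := by
    constructor
    intro a ha u
    show π' (u * a * u⁻¹) ∈ T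
    rw [map_mul, map_mul, map_inv]
    obtain ⟨A, rfl⟩ := pr_surj u
    rw [hπ'mk]
    exact hTd _ _ (fix_DpO φ hQ₀ hσ hφ' A) ha
  rcases hsimple.eq_bot_or_eq_top_of_normal M hMn with hM | hM
  · -- the intersection is trivial
    have hmeet : ∀ t ∈ T, t ∈ DpO φ hQ₀ → t = 1 := by
      rintro t ht ⟨A, rfl⟩
      have h1 : pr A ∈ M := ht
      rw [hM, Subgroup.mem_bot] at h1
      have h2 := congrArg π' h1
      rw [hπ'mk, map_one] at h2
      exact h2
    rw [eq_bot_iff]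
    intro t ht
    rw [Subgroup.mem_bot]
    have htfix : psemiO 1 σ (semi_std hσ) t = t := hT ht
    apply comm_DpO φ hQ₀
    intro d hd
    have hdfix : psemiO 1 σ (semi_std hσ) d = d := by
      obtain ⟨A, rfl⟩ := hd
      exact fix_DpO φ hQ₀ hσ hφ' A
    have h1 : t * d * t⁻¹ * d⁻¹ ∈ T := by
      have h2 : t * d * t⁻¹ * d⁻¹ = t * (d * t⁻¹ * d⁻¹) := by group
      rw [h2]
      exact T.mul_mem ht (hTd d _ hdfix (T.inv_mem ht))
    have h3 : t * d * t⁻¹ * d⁻¹ ∈ DpO φ hQ₀ := by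
      obtain ⟨B, B₀, rfl, hB⟩ := hfx t htfix
      exact (DpO φ hQ₀).mul_mem (conj_DpO φ hQ₀ hB hd) ((DpO φ hQ₀).inv_mem hd)
    have h4 := hmeet _ h1 h3
    have h5 : t * d * t⁻¹ = d := by
      have := mul_inv_eq_one.1 h4
      exact this
    exact mul_inv_eq_iff_eq_mul.1 h5
  · -- the whole small group lies in `T`
    exfalso
    obtain ⟨d, ⟨A, rfl⟩, hdo⟩ := hd
    have h1 : pr A ∈ M := by
      rw [hM]
      trivial
    have h2 : π A ∈ T := h1
    have h3 : orderOf (⟨π A, h2⟩ : T) = p := by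
      rw [Subgroup.orderOf_mk]
      exact hdo
    have h4 : p ∣ Nat.card T := by
      rw [← h3]
      exact orderOf_dvd_natCard _
    exact hpp.one_lt.ne' (Nat.Coprime.eq_one_of_dvd hTc.symm h4)

/-- Squares of isometries lie in `Ω`. -/
theorem sq_mem_om (B : OG Q₀) : B * B ∈ OmG Q₀ := by
  have hq : Fintype.card K ≠ 2 ∨ Fintype.card ι ≠ 4 := Or.inr (by
    have := hK.big
    omega)
  have h1 : B * B ∈ (Cfsg.Agent.Lib.Spinor.invHom hK.nd hq).ker := by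
    rw [MonoidHom.mem_ker, map_mul]
    apply Prod.ext
    · exact Int.units_mul_self _
    · exact Int.units_mul_self _
  rw [← Cfsg.Agent.Lib.Spinor.omega_eq_ker_invHom hK.nd hq] at h1
  exact h1

/-- Odd order elements. -/
theorem exists_order_odd (hfx : ∀ k : PO Q, psemiO 1 σ (semi_std hσ) k = k → ∃ (B : OmG Q) (B₀ : OG Q₀), pr B = k ∧ ogMap φ hQ₀ B₀ = B.1)
    {p : ℕ} [Fact p.Prime] (hodd : Odd p) (hdvd : p ∣ Nat.card (autFix (psemiO 1 σ (semi_std hσ)))) : ∃ d ∈ DpO φ hQ₀, orderOf d = p := by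
  have hpp : p.Prime := Fact.out
  obtain ⟨k, hk⟩ := exists_prime_orderOf_dvd_card' p hdvd
  have hk' : orderOf k.1 = p := by
    rw [Subgroup.orderOf_coe]
    exact hk
  obtain ⟨B, B₀, hB, hB₀⟩ := hfx k.1 k.2
  have h1 : pr (omMap φ hQ₀ ⟨B₀ * B₀, sq_mem_om B₀⟩) = k.1 ^ 2 := by
    rw [pow_two, ← hB, ← map_mul]
    congr 1
    apply Subtype.ext
    show ogMap φ hQ₀ (B₀ * B₀) = B.1 * B.1
    rw [map_mul, hB₀]
  refine ⟨k.1 ^ 2, by rw [← h1]; exact pr_mem_DpO φ hQ₀ _, ?_⟩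
  rw [Nat.Coprime.orderOf_pow, hk']
  rw [hk']
  exact Nat.coprime_two_right.2 hodd

/-- An involution in the small group. -/
theorem exists_invol_DpO (h2 : (2 : F) ≠ 0) : ∃ d ∈ DpO φ hQ₀, orderOf d = 2 := by
  classical
  have hq : Fintype.card K ≠ 2 ∨ Fintype.card ι ≠ 4 := Or.inr (by
    have := hK.big
    omega)
  obtain ⟨v, w, hv, hw, hvw⟩ := exists_perp_values (Q := Q₀) (1 : K) 1
  have hv1 : Q₀ v ≠ 0 := by rw [hv]; exact one_ne_zero
  have hw1 : Q₀ w ≠ 0 := by rw [hw]; exact one_ne_zero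
  have hmem := rf_mul_rf_mem_commutator hK.nd hq hv1 hw1 (hv.trans hw.symm)
  set z : OG Q₀ := rf v hv1 * rf w hw1 with hz
  have hcomm : rf v hv1 * rf w hw1 = rf w hw1 * rf v hv1 := by
    have h1 := rf_conj (rf v hv1) w hw1
    have h3 : rf (oM (rf v hv1) *ᵥ w) (oM_rf_ne hw1) = rf w hw1 := rf_congr (rf_fix v hv1 hvw) _ _
    rw [h3, mul_inv_eq_iff_eq_mul] at h1
    exact h1
  have hzz : z * z = 1 := by
    rw [hz]
    calc rf v hv1 * rf w hw1 * (rf v hv1 * rf w hw1) = rf v hv1 * (rf w hw1 * rf v hv1) * rf w hw1 := by group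
      _ = rf v hv1 * (rf v hv1 * rf w hw1) * rf w hw1 := by rw [← hcomm]
      _ = (rf v hv1 * rf v hv1) * (rf w hw1 * rf w hw1) := by group
      _ = 1 := by rw [rf_sq, rf_sq, one_mul]
  let A₀ : OmG Q₀ := ⟨z, hmem⟩
  have hA₀ : ∀ x : ι → K, mt A₀ *ᵥ x = oM (rf v hv1) *ᵥ (oM (rf w hw1) *ᵥ x) := fun x => oM_mul _ _ x
  refine ⟨pr (omMap φ hQ₀ A₀), pr_mem_DpO φ hQ₀ A₀, ?_⟩
  apply orderOf_eq_prime
  · have h1 : A₀ * A₀ = 1 := Subtype.ext hzz
    rw [pow_two, ← map_mul, ← map_mul, h1, map_one, map_one]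
  · intro h1
    have hneg : ∀ {y : ι → K}, bc φ y = - bc φ y → y = 0 := by
      intro y hy
      apply bc_eq_zero φ
      have h3 : (2 : F) • bc φ y = 0 := by
        rw [two_smul]
        nth_rewrite 1 [hy]
        simp
      exact (smul_eq_zero.1 h3).resolve_left h2
    rcases pr_eq_one_iff.1 h1 with h3 | h3
    · have h4 : mt (omMap φ hQ₀ A₀) *ᵥ bc φ v = bc φ v := by
        rw [h3, Matrix.one_mulVec]
      have h5 : mt (omMap φ hQ₀ A₀) *ᵥ bc φ v = bc φ (-v) := by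
        rw [mt_omMap, map_mulVec_bc, hA₀, rf_fix w hw1 (by rw [polar_symm]; exact hvw), rf_self]
      have h6 : bc φ v = - bc φ v := by
        rw [h5] at h4
        have e : bc φ (-v) = - bc φ v := by
          funext i
          simp
        rw [e] at h4
        exact h4.symm
      exact hv1 (by rw [hneg h6, q_zero])
    · obtain ⟨y, y', hy, hy', hyy, h5, h6, -, -⟩ := exists_hyp_perp2 hK.nd hK.big v w
      have hy0 : y ≠ 0 := by
        rintro rfl
        rw [polar_zero_l] at hyy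
        exact zero_ne_one hyy
      have h4 : mt (omMap φ hQ₀ A₀) *ᵥ bc φ y = - bc φ y := by
        rw [h3, Matrix.neg_mulVec, Matrix.one_mulVec]
      have h7 : mt (omMap φ hQ₀ A₀) *ᵥ bc φ y = bc φ y := by
        rw [mt_omMap, map_mulVec_bc, hA₀, rf_fix w hw1 h6, rf_fix v hv1 h5]
      exact hy0 (hneg (h7.symm.trans h4))

end gen

theorem sim_of_semi_inv {g : GG} {σ : F ≃+* F} (hσ : ∀ v : VV, Q (sm σ v) = σ (Q v)) (hs : Cfsg.IsSemisimilarityPair (⇑Q) g σ) : g ∈ Sim Q := by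
  obtain ⟨c, hc⟩ := semi_Q hs
  refine ⟨c, fun v => ?_⟩
  have h1 := hc (sm σ.symm v)
  rw [sm_sm_symm] at h1
  rw [h1, ← hσ, sm_sm_symm]

set_option maxHeartbeats 1000000 in
/-- The local balance criterion for `PΩ` in odd dimension. -/
theorem pomega_odd_balance [Fintype F] (hodd : Odd (Fintype.card F)) {m : ℕ} (hm : 3 ≤ m) {f : (Unit ⊕ (Fin m ⊕ Fin m) → F) → F} (hf : f = Cfsg.quadFormOdd m F)
    (hKs : IsSimpleGroup (Cfsg.POmega F f)) (A : Subgroup (MulAut (Cfsg.POmega F f))) (hinn : ∀ k : Cfsg.POmega F f, MulAut.conj k ∈ A) {p : ℕ} [Fact p.Prime]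
    (x : MulAut (Cfsg.POmega F f)) (hxA : x ∈ A) (hord : orderOf x = p) (hnot : ¬ Cfsg.IsSimilarityInducedAutPOmega f x) :
    Cfsg.pPrimeCore p ↥(A ⊓ Subgroup.centralizer {x}) ≠ ⊥ ↔ (Cfsg.IsFieldAutClassPOmega f x ∧ Nat.Coprime p (Nat.card ↥(MonoidHom.eqLocus x.toMonoidHom (MonoidHom.id (Cfsg.POmega F f))))) := by
  classical
  have hpp : p.Prime := Fact.out
  have h2 : (2 : F) ≠ 0 := two_ne_zero_of_odd hodd
  obtain ⟨Q, hQ, hnd⟩ := ndq_odd h2 m
  have hQf : ⇑Q = f := hQ.trans hf.symm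
  subst hQf
  haveI : Good Q := good_odd hm hnd
  have hall := hall_of_hmax (hmax_odd hm (Q := Q))
  have hσall : ∀ (ρ : F ≃+* F) (v : Unit ⊕ (Fin m ⊕ Fin m) → F), Q (sm ρ v) = ρ (Q v) := fun ρ v => by
    rw [hf]
    exact quadFormOdd_sm m ρ v
  obtain ⟨g, σ, hs, hxe⟩ := hall x
  have hσ1 : σ ≠ RingEquiv.refl F := by
    rintro rfl
    apply hnot
    rw [hxe]
    exact ⟨g, sim_of_semi hs, psemiO_induced g _ hs⟩
  have hxp : x ^ p = 1 := by
    rw [← hord]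
    exact pow_orderOf_eq_one x
  have hσp : σ ^ p = 1 := by
    rw [hxe, psemiO_pow] at hxp
    exact (psemiO_eq_one hxp).1
  have hσo : orderOf σ = p := orderOf_eq_prime hσp hσ1
  have hσ := hσall σ
  -- the fixed field
  haveI : Finite (fixedField σ) := inferInstance
  letI : Fintype (fixedField σ) := Fintype.ofFinite _
  let φ : fixedField σ →+* F := (fixedField σ).subtype
  have hφ' : ∀ b, σ (φ b) = φ b := fun b => mem_fixedField.1 b.2
  have hφ : ∀ a, σ a = a → ∃ b, φ b = a := fun a ha => ⟨⟨a, mem_fixedField.2 ha⟩, rfl⟩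
  have h2₀ : (2 : fixedField σ) ≠ 0 := by
    intro h0
    apply h2
    have h3 := congrArg φ h0
    rwa [map_ofNat, map_zero] at h3
  obtain ⟨Q₀, hQ₀, hnd₀⟩ := ndq_odd h2₀ m
  haveI : Good Q₀ := good_odd hm hnd₀
  have hQφ : ∀ v, φ (Q₀ v) = Q (bc φ v) := fun v => by
    rw [hf, quadFormOdd_bc, hQ₀]
  have hne : ∃ v : Unit ⊕ (Fin m ⊕ Fin m) → F, Q v ≠ 0 := by
    rw [hf]
    exact quadFormOdd_ne m
  have hn : Odd (Fintype.card (Unit ⊕ (Fin m ⊕ Fin m))) := by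
    simp only [Fintype.card_sum, Fintype.card_unit, Fintype.card_fin]
    exact ⟨m, by ring⟩
  obtain ⟨z, hz, -, hzs, hhe⟩ := core_field φ hφ' hφ hσ hne Q₀ hQφ (sim_of_semi_inv hσ hs) hs hpp.pos hσo (by rw [← hxe]; exact hxp)
    (fun u x b q₀ _ _ hq _ => Cfsg.Agent.Lib.AutPOm.odd_similar q₀ Q₀ hq (fun v => by rw [hQ₀]))
  rw [← hxe] at hhe
  set x₀ := psemiO (1 : GL (Unit ⊕ (Fin m ⊕ Fin m)) F) σ (semi_std hσ) with hx₀
  set δ := psemiO z (RingEquiv.refl F) hzs with hδ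
  have hclass : Cfsg.IsFieldAutClassPOmega (⇑Q) x := by
    refine ⟨δ⁻¹, x₀, σ, hσ1, psemiO_std_mem σ hσ, ?_⟩
    rw [hhe]
    group
  have hKn := hKs.toNontrivial
  have hcen : ∀ k : PO Q, (∀ a, k * a = a * k) → k = 1 := fun k hk => comm_DpO φ hQφ (fun d _ => hk d)
  have hfx : ∀ k : PO Q, x₀ k = k → ∃ (B : OmG Q) (B₀ : OG Q₀), pr B = k ∧ ogMap φ hQφ B₀ = B.1 := by
    intro k hk
    obtain ⟨B, rfl⟩ := pr_surj k
    rw [hx₀, psemiO_pr, pr_eq_iff, mt_std hσ] at hk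
    obtain ⟨B₀, hB₀⟩ := exists_og_of_fixed φ hQφ hφ B (fixed_of_odd hn h2 hk)
    exact ⟨B, B₀, rfl, hB₀⟩
  have main := balance_abstract_conj hcen A hinn x x₀ δ hhe hxA hord ?_ ?_ ?_
  · constructor
    · exact fun h1 => ⟨hclass, main.1 h1⟩
    · exact fun h1 => main.2 h1.2
  · -- non-trivial fixed points
    by_contra hcon
    push Not at hcon
    obtain ⟨y, hy⟩ := exists_ne (1 : PO Q)
    apply hy
    apply comm_DpO φ hQφ
    rintro d ⟨A₀, rfl⟩
    have h1 := hcon _ (fix_DpO φ hQφ hσ hφ' A₀)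
    show y * pr (omMap φ hQφ A₀) = pr (omMap φ hQφ A₀) * y
    rw [h1]
    group
  · intro y hy
    exact fixer_mem_zpowersO φ hQφ hσ hall hσall hφ (fun A₀ => hy _ (fix_DpO φ hQφ hσ hφ' A₀))
  · intro hdvd T hT hTd hTc
    have hodd₀ : Odd (Fintype.card (fixedField σ)) := by
      by_contra hne2
      have h8 : ringChar (fixedField σ) = 2 := FiniteField.even_card_iff_char_two.2 (Nat.even_iff.1 (Nat.not_odd_iff_even.1 hne2))
      have h9 : ((ringChar (fixedField σ) : ℕ) : fixedField σ) = 0 := ringChar.Nat.cast_ringChar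
      rw [h8] at h9
      apply h2₀
      exact_mod_cast h9
    have hsimple : IsSimpleGroup (PO Q₀) := by
      have h3 := Cfsg.Agent.S0295.result hodd₀ m hm
      rw [← hQ₀] at h3
      exact h3
    have hd : ∃ d ∈ DpO φ hQφ, orderOf d = p := by
      rcases hpp.eq_two_or_odd' with h3 | h3
      · subst h3
        exact exists_invol_DpO φ hQφ h2
      · exact exists_order_odd φ hQφ hσ hfx h3 hdvd
    exact T_trivial_of_simpleO φ hQφ hσ hsimple hφ' hfx hd T hT hTd hTc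

end Cfsg.Agent.Lib.AutPOm
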